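import Cfsg.Agent.Eq.Def_FusionSystem
import Cfsg.Agent.Fus.Extension
import Cfsg.Agent.Fus.LocalSystems
import Cfsg.Agent.Fusion.Alperin.Criteria
import Cfsg.Agent.PGroup.Frattini
import Cfsg.Agent.PGroup.Aut
import Mathlib.GroupTheory.Transfer

/-!
If `Aut_F(S) = Inn(S)` and `[S,S] ≤ Q ≤ Φ(S)`, every map of a saturated system preserving `Q` and
defined on a subgroup containing `Q` is a conjugation by an element of `S`.

The key point: for a maximal counterexample `R`, the image of `Aut_F(R, Q)` on `R/Φ(R)` has an abelian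
trivial-intersection self-normalizing Sylow `p`-subgroup `T`, and the transfer `S → R/Φ(R)` shows that
`∑_{t ∈ T} t` kills the image of `Q`.
-/

set_option autoImplicit false

namespace CfsgLib.FusInner

open Cfsg Cfsg.FusionSystem CfsgLib.Fus
open scoped commutatorElement

/-! ### The group-theoretic core -/

/-- Two elements of exponent dividing `p` with equal `n`-th powers, `p ∤ n`, are equal. -/
theorem eq_of_pow_eq {V : Type*} [CommGroup V] {p n : ℕ} (hp : p.Prime) (hn : ¬ p ∣ n)
    (hV : ∀ v : V, v ^ p = 1) {a b : V} (h : a ^ n = b ^ n) : a = b := by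
  have h1 : (a / b) ^ n = 1 := by rw [div_pow, h, div_self']
  have h2 : orderOf (a / b) = 1 := Nat.eq_one_of_dvd_coprimes (hp.coprime_iff_not_dvd.2 hn)
    (orderOf_dvd_of_pow_eq_one (hV _)) (orderOf_dvd_of_pow_eq_one h1)
  exact div_eq_one.1 (orderOf_eq_one_iff.1 h2)

/-- An abelian trivial-intersection Sylow subgroup whose norm kills an invariant subgroup modulo
which it acts trivially is the whole group. -/
theorem eq_top_of_norm {G V : Type*} [Group G] [Finite G] [CommGroup V] {p : ℕ} [Fact p.Prime]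
    (T : Sylow p G) [Fintype T] (act : G →* MulAut V) (hact : Function.Injective act)
    (hV : ∀ v : V, v ^ p = 1)
    (hab : ∀ a ∈ T, ∀ b ∈ T, a * b = b * a)
    (hTI : ∀ g ∉ T, ∀ t ∈ T, g * t * g⁻¹ ∈ T → t = 1)
    (hne : ∃ t ∈ T, t ≠ (1 : G))
    (W : Subgroup V) (hWinv : ∀ g : G, ∀ w ∈ W, act g w ∈ W)
    (hmod : ∀ t ∈ T, ∀ v : V, act t v * v⁻¹ ∈ W)
    (hnorm : ∀ w ∈ W, ∏ t : T, act (t : G) w = 1) : (T : Subgroup G) = ⊤ := by
  classical
  have hp : p.Prime := Fact.out
  have hNC : Subgroup.normalizer ((T : Subgroup G) : Set G) ≤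
      Subgroup.centralizer ((T : Subgroup G) : Set G) := by
    intro g hg t ht
    by_cases hgT : g ∈ T
    · exact hab t ht g hgT
    · rw [hTI g hgT t ht ((Subgroup.mem_normalizer_iff.1 hg t).1 ht), one_mul, mul_one]
  set K := (MonoidHom.transferSylow T hNC).ker with hKdef
  have hKc : Subgroup.IsComplement' K (T : Subgroup G) :=
    MonoidHom.ker_transferSylow_isComplement' T hNC
  have hKN : K.Normal := by rw [hKdef]; infer_instance
  have hKT : ∀ x ∈ K, x ∈ T → x = 1 := fun x h1 h2 =>
    (Subgroup.mem_bot).1 (hKc.disjoint.le_bot ⟨h1, h2⟩)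
  have hKn : ¬ p ∣ Nat.card K := MonoidHom.not_dvd_card_ker_transferSylow T hNC
  let f : K × {t : T // t ≠ 1} → G := fun x => (x.1 : G) * ((x.2.1 : T) : G) * (x.1 : G)⁻¹
  have hfK : ∀ x, f x ∉ K := by
    rintro ⟨k, t, ht⟩ h
    apply ht
    have h1 : (t : G) ∈ K := by
      have := mul_mem (mul_mem (inv_mem k.2) h) k.2
      simpa [f, mul_assoc] using this
    exact Subtype.ext (hKT _ h1 t.2)
  have hinj : Function.Injective f := by
    rintro ⟨k, t, ht⟩ ⟨k', t', ht'⟩ h
    simp only [f] at h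
    have hk : (k : G) = k' := by
      by_contra hne'
      have hnot : (k' : G)⁻¹ * k ∉ T := fun hm => hne'
        (inv_mul_eq_one.1 (hKT _ (mul_mem (inv_mem k'.2) k.2) hm)).symm
      refine ht (Subtype.ext (hTI _ hnot _ t.2 ?_))
      have e : (k' : G)⁻¹ * k * t * ((k' : G)⁻¹ * k)⁻¹ = (t' : G) := by
        rw [show ((k' : G)⁻¹ * k * t * ((k' : G)⁻¹ * k)⁻¹) = (k' : G)⁻¹ * ((k : G) * t * (k : G)⁻¹) * k'
          by group, h]
        group
      rw [e]
      exact t'.2
    obtain rfl : k = k' := Subtype.ext hk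
    obtain rfl : t = t' := Subtype.ext (mul_left_cancel (mul_right_cancel h))
    rfl
  haveI : Fintype G := Fintype.ofFinite G
  have himg : Finset.univ.image f = Finset.univ.filter (fun g => g ∉ K) := by
    refine Finset.eq_of_subset_of_card_le (fun g hg => ?_) ?_
    · obtain ⟨x, -, rfl⟩ := Finset.mem_image.1 hg
      exact Finset.mem_filter.2 ⟨Finset.mem_univ _, hfK x⟩
    · have hc : Fintype.card G = Fintype.card K * Fintype.card (T : Subgroup G) := by
        rw [← Fintype.card_prod]
        exact (Fintype.card_congr (Equiv.ofBijective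
          (fun x : K × (T : Subgroup G) => (x.1 : G) * x.2) hKc)).symm
      have h1 : (Finset.univ.filter (fun g : G => g ∈ K)).card = Fintype.card K :=
        (Fintype.card_subtype _).symm
      have h2 := Finset.card_filter_add_card_filter_not (s := (Finset.univ : Finset G)) (fun g => g ∈ K)
      rw [Finset.card_univ, hc, h1] at h2
      rw [Finset.card_image_of_injective _ hinj, Finset.card_univ, Fintype.card_prod,
        Fintype.card_subtype_compl, Fintype.card_subtype_eq, Nat.mul_sub, mul_one]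
      simp only [← Nat.card_eq_fintype_card] at h2 ⊢
      have e : Nat.card K * Nat.card {x // x ∈ T} = Nat.card K * Nat.card (T : Subgroup G) := rfl
      omega
  have hcover : ∀ g, g ∉ K → ∃ x, f x = g := by
    intro g hg
    have : g ∈ Finset.univ.image f := himg ▸ Finset.mem_filter.2 ⟨Finset.mem_univ _, hg⟩
    obtain ⟨x, -, hx⟩ := Finset.mem_image.1 this
    exact ⟨x, hx⟩
  -- the whole group is trivial modulo `W`
  have hmodG : ∀ g : G, ∀ v : V, act g v * v⁻¹ ∈ W := by
    let B : Subgroup G :=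
      { carrier := {g | ∀ v : V, act g v * v⁻¹ ∈ W}
        one_mem' := fun v => by simp
        mul_mem' := fun {a b} ha hb v => by
          have := mul_mem (ha (act b v)) (hb v)
          simpa [mul_assoc] using this
        inv_mem' := fun {a} ha v => by
          have := inv_mem (ha (act a⁻¹ v))
          simpa using this }
    have h1 : ∀ g, g ∉ K → g ∈ B := by
      intro g hg
      obtain ⟨⟨k, t, -⟩, rfl⟩ := hcover g hg
      intro v
      have := hWinv (k : G) _ (hmod (t : G) t.2 (act (k : G)⁻¹ v))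
      simpa [f, mul_assoc] using this
    obtain ⟨t, ht, ht1⟩ := hne
    have htK : t ∉ K := fun h => ht1 (hKT t h ht)
    intro g
    by_cases hg : g ∈ K
    · have hgt : g * t ∉ K := fun h => htK (by simpa using mul_mem (inv_mem hg) h)
      have h := B.mul_mem (h1 _ hgt) (B.inv_mem (h1 t htK))
      rw [mul_inv_cancel_right] at h
      exact h
    · exact h1 g hg
  -- `K` fixes `W`
  have hfix : ∀ k ∈ K, ∀ w ∈ W, act k w = w := by
    intro k0 hk0 w hw
    have hN : ∀ k : K, ∏ t : T, act ((k : G) * t) w = 1 := fun k => by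
      simp only [map_mul, MulAut.mul_apply]
      rw [← map_prod, hnorm w hw, map_one]
    have hall : ∏ g : G, act g w = 1 := by
      rw [← Fintype.prod_equiv (Equiv.ofBijective (fun x : K × (T : Subgroup G) => (x.1 : G) * x.2) hKc)
        (fun x => act ((x.1 : G) * x.2) w) (fun g => act g w) (fun x => rfl), Fintype.prod_prod_type]
      exact Finset.prod_eq_one fun k _ => hN k
    have hout : ∏ g ∈ Finset.univ.filter (fun g => g ∉ K), act g w = (w ^ Nat.card K)⁻¹ := by
      rw [← himg, Finset.prod_image (fun a _ b _ h => hinj h), Fintype.prod_prod_type,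
        Nat.card_eq_fintype_card, ← inv_pow, ← Finset.card_univ, ← Finset.prod_const]
      refine Finset.prod_congr rfl fun k _ => ?_
      have h := hnorm _ (hWinv (k : G)⁻¹ w hw)
      rw [← Finset.mul_prod_erase _ _ (Finset.mem_univ (1 : (T : Subgroup G)))] at h
      simp only [OneMemClass.coe_one, map_one, MulAut.one_apply] at h
      have h2 : ∏ t : {t : T // t ≠ 1}, act ((t.1 : T) : G) (act (k : G)⁻¹ w) =
          (act (k : G)⁻¹ w)⁻¹ := by
        rw [eq_inv_iff_mul_eq_one, mul_comm,
          ← Finset.prod_subtype ((Finset.univ : Finset (T : Subgroup G)).erase 1) (fun x => by simp)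
            (fun t : T => act (t : G) (act (k : G)⁻¹ w))]
        exact h
      simp only [f, map_mul, MulAut.mul_apply]
      rw [← map_prod, h2, map_inv]
      simp
    have hin : ∏ g ∈ Finset.univ.filter (fun g => g ∈ K), act g w = w ^ Nat.card K := by
      have h := Finset.prod_filter_mul_prod_filter_not Finset.univ (fun g => g ∈ K) (fun g => act g w)
      rw [hall, hout] at h
      exact eq_of_mul_inv_eq_one h
    have hperm : act k0 (∏ g ∈ Finset.univ.filter (fun g => g ∈ K), act g w) =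
        ∏ g ∈ Finset.univ.filter (fun g => g ∈ K), act g w := by
      rw [map_prod]
      refine Finset.prod_bij' (fun g _ => k0 * g) (fun g _ => k0⁻¹ * g) ?_ ?_ ?_ ?_ ?_
      · intro g hg; simpa using mul_mem hk0 (by simpa using hg : g ∈ K)
      · intro g hg; simpa using mul_mem (inv_mem hk0) (by simpa using hg : g ∈ K)
      · intro g _; simp
      · intro g _; simp
      · intro g _; simp
    rw [hin, map_pow] at hperm
    exact eq_of_pow_eq hp hKn hV hperm
  -- `K` is trivial
  have hK1 : K = ⊥ := by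
    rw [eq_bot_iff]
    intro k hk
    rw [Subgroup.mem_bot]
    apply hact
    rw [map_one]
    ext v
    rw [MulAut.one_apply]
    set q := act k v * v⁻¹ with hq
    have hqW : q ∈ W := hmodG k v
    have hj : ∀ j : ℕ, act (k ^ j) v = q ^ j * v := by
      intro j
      induction j with
      | zero => simp
      | succ j ih =>
        rw [pow_succ', map_mul, MulAut.mul_apply, ih, map_mul, map_pow, hfix k hk q hqW, pow_succ,
          mul_assoc, hq, inv_mul_cancel_right]
    have hord : k ^ Nat.card K = 1 := congrArg Subtype.val (pow_card_eq_one' (x := (⟨k, hk⟩ : K)))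
    have h2 := hj (Nat.card K)
    rw [hord, map_one, MulAut.one_apply, right_eq_mul] at h2
    have h3 : q = 1 := eq_of_pow_eq hp hKn hV (by rw [h2, one_pow])
    exact mul_inv_eq_one.1 h3
  have h := hKc.sup_eq_top
  rwa [hK1, bot_sup_eq] at h

/-- Transfer to an elementary abelian group: the norm kills the Frattini subgroup. -/
theorem prod_conj_eq_one {G V : Type*} [Group G] [Finite G] [CommGroup V] {p : ℕ} [Fact p.Prime]
    (H : Subgroup G) [hH : H.Normal] [Fintype (G ⧸ H)] (f : H →* V) (hV : ∀ v : V, v ^ p = 1)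
    {r : G} (hr : r ∈ H) (hΦ : r ∈ frattini G) :
    ∏ q : G ⧸ H, f ⟨q.out⁻¹ * r * q.out, by simpa using hH.conj_mem r hr q.out⁻¹⟩ = 1 := by
  have h1 : MonoidHom.transfer f r = 1 :=
    CfsgLib.CharP.frattini_le_ker_of_elementary (p := p) (MonoidHom.transfer f)
      (fun a b => Commute.all _ _) (fun a => hV _) hΦ
  let T : H.LeftTransversal :=
    ⟨Set.range Quotient.out, Subgroup.isComplement_range_left Quotient.out_eq'⟩
  rw [MonoidHom.transfer_def f T] at h1
  refine Eq.trans ?_ h1
  simp only [Subgroup.leftTransversals.diff]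
  refine Finset.prod_congr (by convert rfl) fun q _ => congrArg f (Subtype.ext ?_)
  have hq : r⁻¹ • q = q := by
    conv_lhs => rw [← QuotientGroup.out_eq' q]
    conv_rhs => rw [← QuotientGroup.out_eq' q]
    show (QuotientGroup.mk (r⁻¹ * q.out) : G ⧸ H) = QuotientGroup.mk q.out
    rw [QuotientGroup.eq]
    have := hH.conj_mem r hr q.out⁻¹
    simpa [mul_assoc] using this
  show q.out⁻¹ * r * q.out = ((T.2.leftQuotientEquiv q : T.1) : G)⁻¹ *
    (((r • T).2.leftQuotientEquiv q : (r • T).1) : G)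
  rw [Subgroup.smul_apply_eq_smul_apply_inv_smul, hq, smul_eq_mul,
    Subgroup.IsComplement.leftQuotientEquiv_apply Quotient.out_eq']
  group

/-! ### Fusion systems -/

/-- The action of automorphisms on the Frattini quotient. -/
noncomputable def frattiniMap (R : Type*) [Group R] : MulAut R →* MulAut (R ⧸ frattini R) where
  toFun α := QuotientGroup.congr (frattini R) (frattini R) α
    (Subgroup.characteristic_iff_map_eq.1 inferInstance α)
  map_one' := by
    ext v
    induction v using QuotientGroup.induction_on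
    rfl
  map_mul' a b := by
    ext v
    induction v using QuotientGroup.induction_on
    rfl

theorem frattiniMap_mk {R : Type*} [Group R] (α : MulAut R) (x : R) :
    frattiniMap R α (QuotientGroup.mk x) = QuotientGroup.mk (α x) := rfl

variable {Ω : Type*} [Group Ω] {S : Subgroup Ω} {p : ℕ} [Fact p.Prime]

theorem le_normalizer_of_commutator_le {Q R : Subgroup Ω}
    (h1 : ∀ a ∈ S, ∀ b ∈ S, ⁅a, b⁆ ∈ Q) (hR : R ≤ S) (hQR : Q ≤ R) :
    S ≤ Subgroup.normalizer (R : Set Ω) := by
  intro g hg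
  refine Subgroup.mem_normalizer_iff.2 fun x => ⟨fun hx => ?_, fun hx => ?_⟩
  · have := mul_mem (hQR (h1 g hg x (hR hx))) hx
    simpa [commutatorElement_def] using this
  · have := mul_mem (hQR (h1 g⁻¹ (inv_mem hg) _ (hR hx))) hx
    simpa [commutatorElement_def, mul_assoc] using this

variable [Finite S]

/-- Main induction. -/
theorem exists_conj (hS : IsPGroup p S) {F : Cfsg.FusionSystem S} (hF : F.IsSaturated p)
    (htop : ∀ φ ∈ F.Hom S, ∃ g ∈ S, ∀ x : S, φ x = g * (x : Ω) * g⁻¹)
    {Q : Subgroup Ω} (hQS : Q ≤ S) (h1 : ∀ a ∈ S, ∀ b ∈ S, ⁅a, b⁆ ∈ Q)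
    (h2 : ∀ x : S, (x : Ω) ∈ Q → x ∈ frattini S) (R : Subgroup Ω) (hQR : Q ≤ R) (ψ : R →* Ω)
    (hψ : ψ ∈ F.Hom R) (hψQ : ∀ x : R, (x : Ω) ∈ Q → ψ x ∈ Q) :
    ∃ g ∈ S, ∀ x : R, ψ x = g * (x : Ω) * g⁻¹ := by
  induction hn : Nat.card S - Nat.card R using Nat.strong_induction_on generalizing R with
  | _ n ih =>
  subst hn
  have := finite_of_le hQS
  have hnorm : ∀ {R : Subgroup Ω}, R ≤ S → Q ≤ R → S ≤ Subgroup.normalizer (R : Set Ω) :=
    fun h h' => le_normalizer_of_commutator_le h1 h h'
  have hfn : ∀ {R : Subgroup Ω}, R ≤ S → Q ≤ R → F.IsFullyNormalized R := fun {R} h h' =>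
    ⟨h, fun R' _ =>
      haveI := finite_of_le (normalizerIn_le (S := S) R)
      Subgroup.card_le_of_le
        (show normalizerIn S R' ≤ normalizerIn S R from fun x hx => ⟨hx.1, hnorm h h' hx.1⟩)⟩
  -- automorphisms of subgroups of the same order
  have claim : ∀ R₁ : Subgroup Ω, Q ≤ R₁ → R₁ ≤ S → Nat.card R₁ = Nat.card R → ∀ α ∈ F.autGroup R₁,
      (∀ x : R₁, (x : Ω) ∈ Q → ((α x : R₁) : Ω) ∈ Q) → α ∈ Cfsg.autInducedBy S R₁ := by
    intro R₁ hQ1 hR1 hcard α hα hαQ
    rcases eq_or_ne R₁ S with rfl | hne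
    · obtain ⟨g, hg, hgα⟩ := htop _ ((mem_autGroup_iff F le_rfl).1 hα)
      exact mem_autInducedBy_iff.2 ⟨g, hg, hgα⟩
    have hN := hnorm hR1 hQ1
    have := finite_of_le hR1
    have := finite_mulAut R₁
    -- an automorphism conjugating an outer element of `Aut_S(R₁)` into `Aut_S(R₁)` is induced by `S`
    have star : ∀ β ∈ F.autGroup R₁, (∀ x : R₁, (x : Ω) ∈ Q → ((β x : R₁) : Ω) ∈ Q) → ∀ g,
        ∀ hg : g ∈ S, g ∉ R₁ → β * conjAut (hN hg) * β⁻¹ ∈ Cfsg.autInducedBy S R₁ →
          β ∈ Cfsg.autInducedBy S R₁ := by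
      intro β hβ hβQ g hg hgR hβg
      obtain ⟨N, hRN, χ, hχ, hlt, hext⟩ :=
        Fusion.Alperin.exists_extend_aut hS hF (hfn hR1 hQ1) hβ hg (hN hg) hgR hβg
      have hext' : ∀ x : R₁, χ (Subgroup.inclusion hRN x) = ((β x : R₁) : Ω) := fun x =>
        DFunLike.congr_fun hext x
      obtain ⟨a, ha, hae⟩ := ih (Nat.card S - Nat.card N)
        (by have := Subgroup.card_le_of_le (hom_le F hχ); omega) N (hQ1.trans hRN) χ hχ
        (fun x hx => by
          have := hext' ⟨x, hQ1 hx⟩
          rw [show Subgroup.inclusion hRN ⟨(x : Ω), hQ1 hx⟩ = x from Subtype.ext rfl] at this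
          rw [this]
          exact hβQ _ hx) rfl
      exact mem_autInducedBy_iff.2 ⟨a, ha, fun x => by rw [← hext' x, hae]; rfl⟩
    by_contra hαT
    -- the group of automorphisms preserving `Q`
    let A : Subgroup (MulAut R₁) :=
      { carrier := {β | β ∈ F.autGroup R₁ ∧
          ∀ x : R₁, ((β x : R₁) : Ω) ∈ Q ↔ (x : Ω) ∈ Q}
        one_mem' := ⟨Subgroup.one_mem _, fun x => Iff.rfl⟩
        mul_mem' := fun {a b} ha hb =>
          ⟨Subgroup.mul_mem _ ha.1 hb.1, fun x => (ha.2 (b x)).trans (hb.2 x)⟩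
        inv_mem' := fun {a} ha => ⟨Subgroup.inv_mem _ ha.1, fun x => by
          have h := ha.2 (a⁻¹ x)
          rw [MulAut.apply_inv_self] at h
          exact h.symm⟩ }
    have hαA : α ∈ A := by
      refine ⟨hα, fun x => ⟨fun h => ?_, hαQ x⟩⟩
      have hsurj : ∀ y : Q.subgroupOf R₁, ∃ z : Q.subgroupOf R₁, α (z : R₁) = y := by
        intro y
        have hb := Finite.surjective_of_injective (f := fun z : Q.subgroupOf R₁ =>
          (⟨α (z : R₁), hαQ _ z.2⟩ : Q.subgroupOf R₁))
          (fun a b hab => Subtype.ext (α.injective (congrArg Subtype.val hab)))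
        obtain ⟨z, hz⟩ := hb y
        exact ⟨z, congrArg Subtype.val hz⟩
      obtain ⟨z, hz⟩ := hsurj ⟨α x, h⟩
      exact α.injective hz ▸ z.2
    have hTA : Cfsg.autInducedBy S R₁ ≤ A := by
      intro β hβ
      refine ⟨autInducedBy_le_autGroup F hR1 hβ, fun x => ?_⟩
      obtain ⟨g, hg, hgβ⟩ := mem_autInducedBy_iff.1 hβ
      rw [hgβ]
      exact ((Subgroup.mem_normalizer_iff.1 (hnorm hQS le_rfl hg)) x).symm
    have hnd : ¬ p ∣ ((Cfsg.autInducedBy S R₁).subgroupOf A).index := by
      intro h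
      apply ((isFullyAutomized_iff hS F).1 (fullyNormalized_props hS hF (hfn hR1 hQ1)).1).2
      exact h.trans (Dvd.intro _ (Subgroup.relIndex_mul_relIndex _ A _ hTA (fun β hβ => hβ.1)))
    let TA : Sylow p A :=
      ((isPGroup_autInducedBy hS R₁).comap_of_injective _ (Subgroup.subtype_injective _)).toSylow hnd
    have hTA_mem : ∀ a : A, a ∈ TA ↔ (a : MulAut R₁) ∈ Cfsg.autInducedBy S R₁ := fun a => Iff.rfl
    let V := R₁ ⧸ frattini R₁
    have hR1p : IsPGroup p R₁ := hS.to_le hR1
    letI : CommGroup V :=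
      { (inferInstance : Group V) with mul_comm := CfsgLib.PGroup.frattini_quotient_comm hR1p }
    let ρ : A →* MulAut V := (frattiniMap R₁).comp A.subtype
    have hρ : ∀ (a : A) (x : R₁),
        ρ a (QuotientGroup.mk x) = QuotientGroup.mk ((a : MulAut R₁) x) := fun a x => rfl
    -- the kernel is a normal `p`-subgroup
    have hker : IsPGroup p ρ.ker := by
      have hP := CfsgLib.PGroup.isPGroup_aut_trivial_frattini hR1p (ρ.ker.map A.subtype) (by
        rintro _ ⟨a, ha, rfl⟩ x
        have h : ρ a (QuotientGroup.mk x) = QuotientGroup.mk x := by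
          rw [MonoidHom.mem_ker.1 ha]; rfl
        rw [hρ, QuotientGroup.eq] at h
        have h' := (inferInstance : (frattini R₁).Normal).conj_mem _ (inv_mem h)
          ((a : MulAut R₁) x)⁻¹
        have h'' := (inferInstance : (frattini R₁).Normal).conj_mem _ (inv_mem h) x
        simpa [mul_assoc] using h'')
      exact hP.of_equiv (ρ.ker.equivMapOfInjective A.subtype A.subtype_injective).symm
    have hkT : ρ.ker ≤ (TA : Subgroup A) := by
      obtain ⟨P, hP⟩ := hker.exists_le_sylow
      obtain ⟨a, ha⟩ := MulAction.exists_smul_eq A P TA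
      intro k hk
      rw [← ha, Sylow.coe_subgroup_smul]
      refine ⟨a⁻¹ * k * a, hP ?_, by simp [mul_assoc]⟩
      simpa using (inferInstance : ρ.ker.Normal).conj_mem k hk a⁻¹
    -- conjugation by elements of `S`
    let θ : S →* ρ.range :=
      { toFun := fun g => ρ.rangeRestrict ⟨conjAut (hN g.2), hTA (conjAut_mem_autInducedBy _ g.2)⟩
        map_one' := by
          rw [← map_one ρ.rangeRestrict]
          exact congrArg _ (Subtype.ext (MulEquiv.ext fun x => Subtype.ext (by simp)))
        map_mul' := fun g h => by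
          rw [← map_mul]
          refine congrArg _ (Subtype.ext (MulEquiv.ext fun x => Subtype.ext ?_))
          show (g : Ω) * h * x * ((g : Ω) * h)⁻¹ = g * (h * x * (h : Ω)⁻¹) * (g : Ω)⁻¹
          group }
    have hθ : ∀ (g : S) (x : R₁), ((θ g : ρ.range) : MulAut V) (QuotientGroup.mk x) =
        QuotientGroup.mk (conjAut (hN g.2) x) := fun g x => rfl
    have hθker : ∀ g : S, θ g = 1 ↔ (g : Ω) ∈ R₁ := by
      intro g
      constructor
      · intro h
        by_contra hgR
        apply hαT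
        refine star α hα hαQ g g.2 hgR ?_
        have hk : (⟨conjAut (hN g.2), hTA (conjAut_mem_autInducedBy _ g.2)⟩ : A) ∈ ρ.ker :=
          MonoidHom.mem_ker.2 (congrArg Subtype.val h)
        exact (hTA_mem _).1 (hkT ((inferInstance : ρ.ker.Normal).conj_mem _ hk ⟨α, hαA⟩))
      · intro hg
        apply Subtype.ext
        ext v
        induction v using QuotientGroup.induction_on with
        | _ x =>
          rw [hθ, OneMemClass.coe_one, MulAut.one_apply,
            show conjAut (hN g.2) x = ⟨g, hg⟩ * x * ⟨g, hg⟩⁻¹ from Subtype.ext rfl]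
          show ((QuotientGroup.mk (⟨(g : Ω), hg⟩ * x * ⟨(g : Ω), hg⟩⁻¹) : V)) = _
          rw [QuotientGroup.mk_mul, QuotientGroup.mk_mul, QuotientGroup.mk_inv, mul_comm,
            inv_mul_cancel_left]
    let T : Sylow p ρ.range := TA.mapSurjective ρ.rangeRestrict_surjective
    have hTmem : ∀ y : ρ.range, y ∈ T ↔ ∃ g : S, θ g = y := by
      intro y
      constructor
      · rintro ⟨a, ha, rfl⟩
        obtain ⟨g, hg, hga⟩ := mem_autInducedBy_iff.1 ((hTA_mem a).1 ha)
        exact ⟨⟨g, hg⟩, congrArg ρ.rangeRestrict (Subtype.ext (MulEquiv.ext fun x =>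
          Subtype.ext (hga x).symm))⟩
      · rintro ⟨g, rfl⟩
        exact ⟨_, conjAut_mem_autInducedBy (hN g.2) g.2, rfl⟩
    have hTpre : ∀ a : A, ρ.rangeRestrict a ∈ T → a ∈ TA := by
      intro a ha
      obtain ⟨b, hb, hba⟩ := ha
      have : b⁻¹ * a ∈ ρ.ker := by
        rw [MonoidHom.mem_ker, map_mul, map_inv,
          show ρ b = ρ a from congrArg Subtype.val hba, inv_mul_cancel]
      exact mul_inv_cancel_left b a ▸ mul_mem (show b ∈ (TA : Subgroup A) from hb) (hkT this)
    haveI : Fintype T := Fintype.ofFinite _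
    have htopT := eq_top_of_norm (p := p) T ρ.range.subtype ρ.range.subtype_injective
      (CfsgLib.PGroup.frattini_quotient_pow hR1p) ?_ ?_ ?_
      ((Q.subgroupOf R₁).map (QuotientGroup.mk' (frattini R₁))) ?_ ?_ ?_
    · exact hαT ((hTA_mem ⟨α, hαA⟩).1 (hTpre _ (show _ ∈ (T : Subgroup ρ.range) by rw [htopT]; trivial)))
    · intro a ha b hb
      obtain ⟨g, rfl⟩ := (hTmem a).1 ha
      obtain ⟨h, rfl⟩ := (hTmem b).1 hb
      rw [← commutatorElement_eq_one_iff_mul_comm, ← map_commutatorElement, hθker]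
      exact hQ1 (h1 g g.2 h h.2)
    · intro y hy t ht hyt
      obtain ⟨⟨a, haA⟩, rfl⟩ := ρ.rangeRestrict_surjective y
      obtain ⟨g, rfl⟩ := (hTmem t).1 ht
      rw [hθker]
      by_contra hgR
      have h := hTpre (⟨a, haA⟩ * ⟨conjAut (hN g.2), hTA (conjAut_mem_autInducedBy _ g.2)⟩ *
        ⟨a, haA⟩⁻¹) (by rw [map_mul, map_mul, map_inv]; exact hyt)
      have := star a haA.1 (fun x hx => (haA.2 x).2 hx) g g.2 hgR ((hTA_mem _).1 h)
      exact hy ⟨⟨a, haA⟩, this, rfl⟩
    · obtain ⟨g, hg, hgR⟩ := SetLike.exists_of_lt (lt_of_le_of_ne hR1 hne)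
      exact ⟨θ ⟨g, hg⟩, (hTmem _).2 ⟨_, rfl⟩, fun h => hgR ((hθker _).1 h)⟩
    · rintro ⟨_, ⟨a, haA⟩, rfl⟩ _ ⟨x, hx, rfl⟩
      exact ⟨a x, (haA.2 x).2 hx, rfl⟩
    · intro t ht v
      obtain ⟨g, rfl⟩ := (hTmem t).1 ht
      induction v using QuotientGroup.induction_on with
      | _ x =>
        refine ⟨conjAut (hN g.2) x * x⁻¹, ?_, rfl⟩
        exact h1 g g.2 x (hR1 x.2)
    · rintro _ ⟨x, hx, rfl⟩
      let H : Subgroup S := R₁.subgroupOf S
      have hHn : H.Normal := ⟨fun a ha b => conj_mem_of_normalizer (hN b.2) ha⟩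
      haveI : Fintype (S ⧸ H) := Fintype.ofFinite _
      let f : H →* V := (QuotientGroup.mk' (frattini R₁)).comp
        { toFun := fun y => (⟨((y : S) : Ω), y.2⟩ : R₁)
          map_one' := rfl
          map_mul' := fun _ _ => rfl }
      have hxS : (⟨(x : Ω), hR1 x.2⟩ : S) ∈ frattini S := h2 _ hx
      have hprod := prod_conj_eq_one (p := p) H f (CfsgLib.PGroup.frattini_quotient_pow hR1p)
        (show (⟨(x : Ω), hR1 x.2⟩ : S) ∈ H from x.2) hxS
      refine Eq.trans ?_ hprod
      let e : S ⧸ H → T := fun q => ⟨θ q.out⁻¹, (hTmem _).2 ⟨_, rfl⟩⟩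
      have hcomm : ∀ a b : S, θ a = θ b ↔ (a : Ω)⁻¹ * b ∈ R₁ := fun a b => by
        rw [← inv_mul_eq_one, ← map_inv, ← map_mul, hθker]
        rfl
      have he : Function.Bijective e := by
        constructor
        · intro a b hab
          have h : θ a.out⁻¹ = θ b.out⁻¹ := congrArg Subtype.val hab
          rw [map_inv, map_inv, inv_inj, hcomm] at h
          rw [← QuotientGroup.out_eq' a, ← QuotientGroup.out_eq' b]
          exact QuotientGroup.eq.2 h
        · rintro ⟨t, ht⟩
          obtain ⟨g, rfl⟩ := (hTmem t).1 ht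
          refine ⟨QuotientGroup.mk g⁻¹, Subtype.ext ?_⟩
          show θ (QuotientGroup.mk g⁻¹ : S ⧸ H).out⁻¹ = θ g
          obtain ⟨r, hr⟩ := QuotientGroup.mk_out_eq_mul H g⁻¹
          rw [hr, map_inv, map_mul, (hθker (r : S)).2 r.2, mul_one, map_inv, inv_inv]
      refine (Fintype.prod_bijective e he _ _ fun q => ?_).symm
      refine congrArg (QuotientGroup.mk' (frattini R₁)) (Subtype.ext ?_)
      show ((q.out : S) : Ω)⁻¹ * x * (q.out : S) =
        (((q.out⁻¹ : S)) : Ω) * x * (((q.out⁻¹ : S)) : Ω)⁻¹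
      simp
  -- now the map itself
  have hRS := hom_le F hψ
  have := finite_of_le hRS
  have hQr : Q ≤ ψ.range := fun z hz => by
    obtain ⟨y, -, rfl⟩ :=
      (Fusion.Alperin.subgroupOf_map_eq (F.injective_of_mem hψ) hQR hψQ).ge hz
    exact ⟨y, rfl⟩
  have hR'S := range_le F hψ
  have hext : S ≤ extender S R ψ := by
    intro g hg
    refine mem_extender_of_congr hψ rfl hg (hnorm hRS hQR hg) (claim ψ.range hQr hR'S
      (isConj_card (isConj_of_hom F hψ)).symm _ (congr_mem_autGroup hψ rfl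
        (autInducedBy_le_autGroup F hRS (conjAut_mem_autInducedBy _ hg))) fun y hy => ?_)
    show ψ (conjAut (hnorm hRS hQR hg) ((isoOf hψ rfl).symm y)) ∈ Q
    have hz : ((((isoOf hψ rfl).symm y : R)) : Ω) ∈ Q := by
      obtain ⟨z, hz, hzy⟩ :=
        (Fusion.Alperin.subgroupOf_map_eq (F.injective_of_mem hψ) hQR hψQ).ge hy
      rw [← isoOf_symm_apply hψ rfl y] at hzy
      rw [← F.injective_of_mem hψ hzy]
      exact hz
    exact hψQ _ (conj_mem_of_normalizer (hnorm hQS le_rfl hg) hz)
  obtain ⟨χ, hχ, hχe⟩ := exists_ext (fullyNormalized_props hS hF (hfn hR'S hQr)).2 hψ rfl hRS hext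
  obtain ⟨g, hg, hgχ⟩ := htop χ hχ
  exact ⟨g, hg, fun x => by rw [← hχe x, hgχ]; rfl⟩

end CfsgLib.FusInner
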